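import Cfsg.Agent.Lib.Transfer.Tate
import Cfsg.Agent.Lib.FPF.FrobeniusKernel
import Cfsg.Agent.Lib.Coprime.Abelian
import Cfsg.Agent.Lib.GS.Sylow
import Cfsg.Agent.Lib.PGroupFrattini

/-! Camina pairs: the trichotomy. -/

set_option autoImplicit false

namespace Cfsg.Agent.Lib.Camina

open Subgroup

universe u

variable {G : Type u} [Group G] [Finite G] {N : Subgroup G} [N.Normal]

/-- All of a coset outside the normal subgroup is conjugate. -/
def IsCamina (N : Subgroup G) : Prop := ∀ g : G, g ∉ N → ∀ n ∈ N, ∃ x : G, x * g * x⁻¹ = g * n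

theorem card_centralizer_eq (hcam : IsCamina N) {g : G} (hg : g ∉ N) :
    Nat.card (centralizer ({g} : Set G)) = Nat.card (centralizer ({(g : G ⧸ N)} : Set (G ⧸ N))) := by
  have hset : (ConjClasses.mk g).carrier = QuotientGroup.mk ⁻¹' (ConjClasses.mk (g : G ⧸ N)).carrier := by
    ext h
    simp only [Set.mem_preimage, ConjClasses.mem_carrier_iff_mk_eq, ConjClasses.mk_eq_mk_iff_isConj, isConj_iff]
    constructor
    · rintro ⟨c, hc⟩
      exact ⟨(c : G ⧸ N), by rw [← hc]; simp⟩
    · rintro ⟨c', hc⟩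
      obtain ⟨c, rfl⟩ := QuotientGroup.mk_surjective c'
      rw [← QuotientGroup.mk_inv, ← QuotientGroup.mk_mul, ← QuotientGroup.mk_mul, QuotientGroup.eq] at hc
      have h1 : c * h * c⁻¹ ∉ N ∨ True := Or.inr trivial
      obtain ⟨x, hx⟩ := hcam g hg (g⁻¹ * (c * h * c⁻¹)) (by
        have := inv_mem hc
        simpa [mul_assoc] using this)
      refine ⟨x⁻¹ * c, ?_⟩
      rw [mul_inv_cancel_left] at hx
      calc x⁻¹ * c * h * (x⁻¹ * c)⁻¹ = x⁻¹ * (c * h * c⁻¹) * x := by group
        _ = g := by rw [← hx]; group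
  have h1 : (ConjClasses.mk g).carrier.ncard = Nat.card N * (ConjClasses.mk (g : G ⧸ N)).carrier.ncard := by
    rw [hset, ← Nat.card_coe_set_eq, ← Nat.card_coe_set_eq,
      Nat.card_congr (QuotientGroup.preimageMkEquivSubgroupProdSet N _), Nat.card_prod]
  rw [GS.ncard_carrier_eq_index, GS.ncard_carrier_eq_index] at h1
  have e1 := (centralizer ({g} : Set G)).card_mul_index
  have e2 := (centralizer ({(g : G ⧸ N)} : Set (G ⧸ N))).card_mul_index
  have e3 : Nat.card N * Nat.card (G ⧸ N) = Nat.card G := by rw [← index_eq_card, card_mul_index]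
  rw [h1, ← e3, ← e2] at e1
  have hpos : 0 < Nat.card N * (centralizer ({(g : G ⧸ N)} : Set (G ⧸ N))).index :=
    Nat.mul_pos Nat.card_pos (Nat.pos_of_ne_zero index_ne_zero_of_finite)
  refine Nat.eq_of_mul_eq_mul_right hpos ?_
  linarith

theorem orderOf_mul_eq (hcam : IsCamina N) {g n : G} (hg : g ∉ N) (hn : n ∈ N) :
    orderOf (g * n) = orderOf g := by
  obtain ⟨x, hx⟩ := hcam g hg n hn
  rw [← hx]
  exact orderOf_injective (MulAut.conj x).toMonoidHom (MulAut.conj x).injective g

/-- A power with the same image modulo `N` of prime power order, if the image is such. -/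
theorem exists_pElement {p : ℕ} [hp : Fact p.Prime] {g : G} (hg : ∃ k : ℕ, (g : G ⧸ N) ^ p ^ k = 1) :
    ∃ m : ℕ, (∃ e : ℕ, orderOf (g ^ m) = p ^ e) ∧ zpowers ((g ^ m : G) : G ⧸ N) = zpowers (g : G ⧸ N) := by
  classical
  obtain ⟨k, hk⟩ := hg
  set e := (orderOf g).factorization p
  set s := orderOf g / p ^ e with hs
  have hcop : (p ^ k).Coprime s :=
    Nat.Coprime.pow_left k (hp.out.coprime_iff_not_dvd.mpr (Nat.not_dvd_ordCompl hp.out (orderOf_pos g).ne'))
  refine ⟨s, ⟨e, ?_⟩, ?_⟩
  · have hsd : s ∣ orderOf g := Nat.ordCompl_dvd _ _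
    rw [orderOf_pow_of_dvd (by
      intro h0
      have := Nat.eq_zero_of_zero_dvd (h0 ▸ hsd)
      exact (orderOf_pos g).ne' this) hsd, hs]
    exact Nat.div_div_self (Nat.ordProj_dvd _ _) (orderOf_pos g).ne'
  · apply le_antisymm
    · rw [zpowers_le, QuotientGroup.mk_pow]
      exact pow_mem (mem_zpowers _) s
    · have hc : (orderOf (g : G ⧸ N)).Coprime s :=
        hcop.coprime_dvd_left (orderOf_dvd_of_pow_eq_one hk)
      obtain ⟨j, hj⟩ := exists_pow_eq_self_of_coprime hc.symm
      rw [zpowers_le, QuotientGroup.mk_pow]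
      have := pow_mem (mem_zpowers ((g : G ⧸ N) ^ s)) j
      rwa [hj] at this

theorem eq_one_of_fixed (hcam : IsCamina N) {p : ℕ} [hp : Fact p.Prime] {g n : G} (hg : g ∉ N)
    (hk : ∃ k : ℕ, (g : G ⧸ N) ^ p ^ k = 1) (hn : n ∈ N) (hcomm : Commute g n)
    (hcop : (orderOf n).Coprime p) : n = 1 := by
  obtain ⟨m, ⟨e, he⟩, hz⟩ := exists_pElement hk
  have hmN : g ^ m ∉ N := by
    intro h
    apply hg
    rw [(QuotientGroup.eq_one_iff _).mpr h, zpowers_one_eq_bot, eq_comm, zpowers_eq_bot] at hz
    exact (QuotientGroup.eq_one_iff _).mp hz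
  have h := orderOf_mul_eq hcam hmN hn
  have hc' : (orderOf (g ^ m)).Coprime (orderOf n) := by rw [he]; exact (hcop.pow_right e).symm
  rw [(hcomm.pow_left m).orderOf_mul_eq_mul_orderOf_of_coprime hc'] at h
  rw [← orderOf_eq_one_iff]
  exact (mul_eq_left₀ (orderOf_pos (g ^ m)).ne').mp h

/-- A common prime: the Sylow subgroup meets `N` inside its derived subgroup. -/
theorem hasNormalPComplement (hcam : IsCamina N) {p : ℕ} [hp : Fact p.Prime] (hpI : p ∣ N.index) :
    Cfsg.HasNormalPComplement p N := by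
  obtain ⟨P⟩ := (inferInstance : Nonempty (Sylow p G))
  refine Transfer.tate P N ?_
  set Pb := (P : Subgroup G).map (QuotientGroup.mk' N) with hPb
  let PbS : Sylow p (G ⧸ N) := P.mapSurjective (QuotientGroup.mk'_surjective N)
  have hPbS : (PbS : Subgroup (G ⧸ N)) = Pb := rfl
  have hne : Pb ≠ ⊥ := by
    rw [← hPbS]
    refine PbS.ne_bot_of_dvd_card ?_
    rwa [← index_eq_card]
  have hPbp : IsPGroup p Pb := P.2.map _
  haveI : Nontrivial Pb := (Pb.nontrivial_iff_ne_bot).mpr hne
  haveI := hPbp.center_nontrivial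
  obtain ⟨⟨⟨xb, hxb⟩, hxc⟩, hx1⟩ := exists_ne (1 : center Pb)
  obtain ⟨x, hxP, rfl⟩ := hxb
  have hxN : x ∉ N := by
    intro h
    apply hx1
    ext
    exact (QuotientGroup.eq_one_iff x).mpr h
  set P0 := N ⊓ (P : Subgroup G) with hP0
  set C := (centralizer ({x} : Set G)).subgroupOf (P : Subgroup G) with hC
  -- the centralizer in `P` is small
  have hCle : Nat.card C ≤ Nat.card Pb := by
    obtain ⟨a, ha⟩ := (P.2.to_subgroup C).exists_card_eq
    obtain ⟨b, hb⟩ := hPbp.exists_card_eq
    have hd : Nat.card C ∣ Nat.card (G ⧸ N) := by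
      have hd1 : Nat.card C ∣ Nat.card (centralizer ({x} : Set G)) := by
        rw [hC, ← card_map_of_injective (f := (P : Subgroup G).subtype) (subtype_injective _),
          subgroupOf_map_subtype]
        exact card_dvd_of_le inf_le_left
      rw [card_centralizer_eq hcam hxN] at hd1
      exact hd1.trans (card_subgroup_dvd_card _)
    have hnd : ¬ p ∣ Pb.index := hPbS ▸ PbS.not_dvd_index
    rw [← card_mul_index Pb, ha] at hd
    have hd' : p ^ a ∣ Nat.card Pb :=
      ((hp.out.coprime_iff_not_dvd.mpr hnd).pow_left a).dvd_of_dvd_mul_right hd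
    rw [ha]
    exact Nat.le_of_dvd Nat.card_pos hd'
  -- the commutator map fills `P0`
  let f : ↥(P : Subgroup G) → G := fun y => x⁻¹ * (y * x * (y : G)⁻¹)
  have hfP0 : Set.range f ⊆ (P0 : Set G) := by
    rintro _ ⟨y, rfl⟩
    refine ⟨?_, (P : Subgroup G).mul_mem ((P : Subgroup G).inv_mem hxP)
      ((P : Subgroup G).mul_mem ((P : Subgroup G).mul_mem y.2 hxP) ((P : Subgroup G).inv_mem y.2))⟩
    change f y ∈ N
    rw [← QuotientGroup.eq_one_iff]
    have hc := mem_center_iff.mp hxc ⟨QuotientGroup.mk' N y, mem_map_of_mem _ y.2⟩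
    have hc' : ((y : G) : G ⧸ N) * (x : G ⧸ N) = (x : G ⧸ N) * ((y : G) : G ⧸ N) := congrArg Subtype.val hc
    simp only [f, QuotientGroup.mk_mul, QuotientGroup.mk_inv, hc']
    group
  have hcard : Nat.card P0 ≤ Nat.card (Set.range f) := by
    have hlow : C.index ≤ Nat.card (Set.range f) := by
      rw [index_eq_card]
      refine Nat.card_le_card_of_injective
        (fun q => Quotient.liftOn' q (fun y => (⟨f y, y, rfl⟩ : Set.range f)) ?_) ?_
      · intro y z hyz
        rw [QuotientGroup.leftRel_apply, hC, mem_subgroupOf, mem_centralizer_singleton_iff] at hyz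
        apply Subtype.ext
        simp only [f]
        congr 1
        simp only [coe_mul, coe_inv] at hyz
        calc (y : G) * x * (y : G)⁻¹ = (y : G) * (x * ((y : G)⁻¹ * z)) * (z : G)⁻¹ := by group
          _ = (z : G) * x * (z : G)⁻¹ := by rw [← hyz]; group
      · intro q r
        induction q using QuotientGroup.induction_on with
        | H y =>
          induction r using QuotientGroup.induction_on with
          | H z =>
            intro h
            have h' : f y = f z := congrArg Subtype.val h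
            simp only [f, mul_right_inj] at h'
            rw [QuotientGroup.eq, hC, mem_subgroupOf, mem_centralizer_singleton_iff]
            simp only [coe_mul, coe_inv]
            calc (y : G)⁻¹ * z * x = (y : G)⁻¹ * ((z : G) * x * (z : G)⁻¹) * z := by group
              _ = x * ((y : G)⁻¹ * z) := by rw [← h']; group
    have e1 := C.card_mul_index
    have hidx : (N.subgroupOf (P : Subgroup G)).index = Nat.card Pb := by
      rw [hPb]
      rw [show N.subgroupOf (P : Subgroup G) = ((QuotientGroup.mk' N).comp (P : Subgroup G).subtype).ker by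
        rw [← MonoidHom.comap_ker, QuotientGroup.ker_mk']; rfl]
      rw [index_ker, MonoidHom.range_comp, range_subtype]
    have hP0c : Nat.card P0 = Nat.card (N.subgroupOf (P : Subgroup G)) := by
      rw [hP0, ← card_map_of_injective (f := (P : Subgroup G).subtype) (subtype_injective _),
        subgroupOf_map_subtype]
    have e2 := (N.subgroupOf (P : Subgroup G)).card_mul_index
    rw [hidx, ← hP0c, ← e1] at e2
    refine le_trans ?_ hlow
    refine Nat.le_of_mul_le_mul_right ?_ (Nat.card_pos (α := Pb))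
    calc Nat.card P0 * Nat.card Pb = Nat.card C * C.index := e2
      _ ≤ Nat.card Pb * C.index := Nat.mul_le_mul_right _ hCle
      _ = C.index * Nat.card Pb := mul_comm _ _
  have heq : Set.range f = (P0 : Set G) := by
    refine Set.eq_of_subset_of_ncard_le hfP0 ?_ (Set.toFinite _)
    rw [← Nat.card_coe_set_eq, ← Nat.card_coe_set_eq]
    exact hcard
  intro n hn
  obtain ⟨y, hy⟩ := heq.ge hn
  refine Subgroup.map_mono (PGroupFrattini.commutator_le_frattini P.2) ?_
  refine ⟨⟨x, hxP⟩⁻¹ * y * ⟨x, hxP⟩ * y⁻¹, ?_, ?_⟩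
  · have := Subgroup.commutator_mem_commutator (H₁ := (⊤ : Subgroup ↥(P : Subgroup G))) (H₂ := ⊤)
      (mem_top (⟨x, hxP⟩⁻¹)) (mem_top y)
    rw [_root_.commutator_def]
    simpa [commutatorElement_def] using this
  · rw [← hy]
    simp [f, mul_assoc]

/-- Nilpotent `N`, common prime `p`: then `N` is a `p`-group. -/
theorem eq_of_nilpotent (hcam : IsCamina N) [Group.IsNilpotent N] {p r : ℕ} [hp : Fact p.Prime] [hr : Fact r.Prime]
    (hpI : p ∣ N.index) (hpN : p ∣ Nat.card N) (hrN : r ∣ Nat.card N) : r = p := by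
  classical
  by_contra hrp
  -- an element of order `r` central in `N`
  obtain ⟨R⟩ := (inferInstance : Nonempty (Sylow r N))
  haveI hRn : (R : Subgroup N).Normal := R.normal_of_normalizerCondition normalizerCondition_of_isNilpotent
  obtain ⟨Pn⟩ := (inferInstance : Nonempty (Sylow p N))
  haveI hPn : (Pn : Subgroup N).Normal := Pn.normal_of_normalizerCondition normalizerCondition_of_isNilpotent
  have hZ : ∃ w : N, w ∈ center N ∧ orderOf w = r := by
    haveI : Nontrivial (R : Subgroup N) := ((R : Subgroup N).nontrivial_iff_ne_bot).mpr (R.ne_bot_of_dvd_card hrN)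
    have hd : (R : Subgroup N) ⊓ center N ≠ ⊥ := by
      haveI : Nontrivial (center (R : Subgroup N)) := R.2.center_nontrivial
      obtain ⟨⟨z, hz⟩, hz1⟩ := exists_ne (1 : center (R : Subgroup N))
      intro hbot
      apply hz1
      have hzc : (z : N) ∈ center N := by
        suffices hC : centralizer ({(z : N)} : Set N) = ⊤ by
          rw [mem_center_iff]
          intro n
          exact mem_centralizer_singleton_iff.mp (hC ▸ mem_top n : n ∈ centralizer ({(z : N)} : Set N))
        rw [← index_eq_one]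
        by_contra hne1
        obtain ⟨q, hq, hqd⟩ := Nat.exists_prime_and_dvd hne1
        haveI := Fact.mk hq
        obtain ⟨Q⟩ := (inferInstance : Nonempty (Sylow q N))
        have hQC : (Q : Subgroup N) ≤ centralizer ({(z : N)} : Set N) := by
          intro y hy
          rw [mem_centralizer_singleton_iff]
          by_cases hqr : q = r
          · subst hqr
            haveI := Sylow.unique_of_normal R hRn
            obtain rfl := Subsingleton.elim Q R
            exact congrArg Subtype.val (mem_center_iff.mp hz ⟨y, hy⟩)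
          · haveI hQn : (Q : Subgroup N).Normal :=
              Q.normal_of_normalizerCondition normalizerCondition_of_isNilpotent
            exact (Subgroup.commute_of_normal_of_disjoint _ _ hQn hRn
              (IsPGroup.disjoint_of_ne q r hqr _ _ Q.2 R.2) y z hy z.2).eq
        exact Q.not_dvd_index (hqd.trans (index_dvd_of_le hQC))
      have : (z : N) ∈ (⊥ : Subgroup N) := hbot ▸ ⟨z.2, hzc⟩
      ext
      exact congrArg Subtype.val (mem_bot.mp this)
    obtain ⟨w, hw⟩ := exists_prime_orderOf_dvd_card' (G := ↥((R : Subgroup N) ⊓ center N)) r (by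
      obtain ⟨a, ha⟩ := (R.2.to_le (inf_le_left : (R : Subgroup N) ⊓ center N ≤ R)).exists_card_eq
      rw [ha]
      refine dvd_pow_self r ?_
      rintro rfl
      rw [pow_zero] at ha
      exact hd (card_eq_one.mp ha))
    exact ⟨w, w.2.2, by rw [orderOf_coe, hw]⟩
  obtain ⟨w₀, hw₀c, hw₀o⟩ := hZ
  let W : Subgroup G :=
    { carrier := {z | z ∈ N ∧ (∀ n ∈ N, n * z = z * n) ∧ z ^ r = 1}
      one_mem' := ⟨one_mem _, by simp, one_pow _⟩
      mul_mem' := fun {a b} ha hb => ⟨mul_mem ha.1 hb.1,
        fun n hn => ((show Commute n a from ha.2.1 n hn).mul_right (hb.2.1 n hn)),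
        by rw [(show Commute a b from hb.2.1 a ha.1).mul_pow, ha.2.2, hb.2.2, one_mul]⟩
      inv_mem' := fun {a} ha => ⟨inv_mem ha.1,
        fun n hn => (show Commute n a from ha.2.1 n hn).inv_right, by rw [inv_pow, ha.2.2, inv_one]⟩ }
  haveI : W.Normal := by
    constructor
    intro z hz g
    refine ⟨Normal.conj_mem inferInstance z hz.1 g, fun n hn => ?_, by rw [conj_pow, hz.2.2]; simp⟩
    have h1 := hz.2.1 (g⁻¹ * n * g) (by simpa using Normal.conj_mem inferInstance n hn g⁻¹)
    calc n * (g * z * g⁻¹) = g * (g⁻¹ * n * g * z) * g⁻¹ := by group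
      _ = g * z * g⁻¹ * n := by rw [h1]; group
  letI : CommGroup W :=
    { (inferInstance : Group W) with mul_comm := fun a b => Subtype.ext (b.2.2.1 a a.2.1) }
  let φ : G ⧸ N →* MulAut W := QuotientGroup.lift N MulAut.conjNormal (by
    intro n hn
    ext z
    simp only [MulAut.conjNormal_apply, MulAut.one_apply]
    rw [z.2.2.1 n hn, mul_inv_cancel_right])
  have hWcop : p.Coprime (Nat.card W) := by
    have hWr : IsPGroup r W := fun z => ⟨1, by ext; simpa using z.2.2.2⟩
    obtain ⟨a, ha⟩ := hWr.exists_card_eq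
    rw [ha]
    exact ((Nat.coprime_primes hp.out hr.out).mpr (Ne.symm hrp)).pow_right a
  have hfix : ∀ b : G ⧸ N, b ≠ 1 → (∃ k : ℕ, b ^ p ^ k = 1) → ∀ z : W, φ b z = z → z = 1 := by
    intro b hb hk z hz
    obtain ⟨g, rfl⟩ := QuotientGroup.mk_surjective b
    have hz' : g * z * g⁻¹ = z := by
      have := congrArg Subtype.val hz
      change (MulAut.conjNormal g z : G) = z at this
      rwa [MulAut.conjNormal_apply] at this
    ext
    refine eq_one_of_fixed hcam (fun h => hb ((QuotientGroup.eq_one_iff g).mpr h)) hk z.2.1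
      (mul_inv_eq_iff_eq_mul.mp hz') ?_
    exact ((Nat.coprime_primes hr.out hp.out).mpr hrp).coprime_dvd_left (orderOf_dvd_of_pow_eq_one z.2.2.2)
  -- abelian `p`-subgroups of the quotient are cyclic
  have hcyc : ∀ A : Subgroup (G ⧸ N), IsMulCommutative A → IsPGroup p A → IsCyclic A := by
    intro A hA hAp
    by_contra hnc
    obtain ⟨q, B, hq, hBA, hexp, hB⟩ := Coprime.exists_elementary_sq hnc
    have hqp : q = p := by
      obtain ⟨a, ha⟩ := (hAp.to_le hBA).exists_card_eq
      rw [hB] at ha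
      exact (Nat.prime_dvd_prime_iff_eq hq hp.out).mp (hq.dvd_of_dvd_pow (ha ▸ dvd_pow_self q two_ne_zero))
    subst hqp
    haveI := Fintype.ofFinite B
    have htop := Coprime.eq_top_of_fixed_mem (φ.comp B.subtype) hq
      (fun a => Subtype.ext (hexp a a.2)) hB hWcop ⊥ (fun a ha z hz => by
        rw [mem_bot]
        exact hfix a (fun h => ha (Subtype.ext h)) ⟨1, by rw [pow_one]; exact hexp a a.2⟩ z hz)
    have hw : (⟨w₀, w₀.2, fun n hn => congrArg Subtype.val (mem_center_iff.mp hw₀c ⟨n, hn⟩),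
        by rw [← SubmonoidClass.coe_pow, ← hw₀o, pow_orderOf_eq_one]; rfl⟩ : W) ∈ (⊥ : Subgroup W) :=
      htop ▸ mem_top _
    rw [mem_bot] at hw
    have : w₀ = 1 := Subtype.ext (congrArg Subtype.val hw :)
    rw [this, orderOf_one] at hw₀o
    exact hr.out.ne_one hw₀o.symm
  -- a `p`-element of maximal order
  let S : Finset (G ⧸ N) := (Set.toFinite {b : G ⧸ N | b ≠ 1 ∧ ∃ k : ℕ, orderOf b = p ^ k}).toFinset
  have hS : S.Nonempty := by
    obtain ⟨b, hb⟩ := exists_prime_orderOf_dvd_card' (G := G ⧸ N) p (by rwa [← index_eq_card])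
    refine ⟨b, ?_⟩
    simp only [S, Set.Finite.mem_toFinset, Set.mem_ofPred_eq]
    exact ⟨fun h => by rw [h, orderOf_one] at hb; exact hp.out.ne_one hb.symm, 1, by rw [hb, pow_one]⟩
  obtain ⟨xb, hxb, hmax⟩ := S.exists_max_image orderOf hS
  simp only [S, Set.Finite.mem_toFinset, Set.mem_ofPred_eq] at hxb hmax
  obtain ⟨hxb1, a, hxbo⟩ := hxb
  -- the `p`-part of its centralizer
  have hsmall : ∀ T : Subgroup (G ⧸ N), T ≤ centralizer {xb} → IsPGroup p T → Nat.card T ≤ p ^ a := by
    intro T hT hTp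
    rw [← hxbo, ← Nat.card_zpowers]
    refine card_le_of_le fun t ht => ?_
    let A : Subgroup (G ⧸ N) := closure {xb, t}
    haveI hA : IsMulCommutative A := by
      refine isMulCommutative_closure ?_
      have hc : t * xb = xb * t := mem_centralizer_singleton_iff.mp (hT ht)
      rintro y (rfl | rfl) z (rfl | rfl) <;> simp [hc]
    have hA' : A ≤ zpowers xb ⊔ T := by
      rw [closure_le]
      rintro y (rfl | rfl)
      · exact mem_sup_left (mem_zpowers _)
      · exact mem_sup_right ht
    have hAp : IsPGroup p A := by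
      refine (IsPGroup.to_sup_of_normal_left' (IsPGroup.of_card (n := a) (by rw [Nat.card_zpowers, hxbo])) hTp ?_).to_le hA'
      intro s hs
      rw [mem_normalizer_iff]
      have hc : Commute s xb := mem_centralizer_singleton_iff.mp (hT hs)
      intro y
      constructor
      · rintro ⟨j, rfl⟩
        exact ⟨j, by show xb ^ j = s * xb ^ j * s⁻¹; rw [(hc.zpow_right j).eq, mul_inv_cancel_right]⟩
      · rintro ⟨j, hj⟩
        refine ⟨j, ?_⟩
        show xb ^ j = y
        simp only at hj
        have := congrArg (fun v => s⁻¹ * v * s) hj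
        simpa [mul_assoc, (hc.zpow_right j).symm.eq] using this
    obtain ⟨⟨g, hgA⟩, hg⟩ := (hcyc A hA hAp).exists_generator
    have hxA : xb ∈ A := subset_closure (by simp)
    have hgx : xb ∈ zpowers g := by
      obtain ⟨j, hj⟩ := hg ⟨xb, hxA⟩
      exact ⟨j, by simpa using congrArg Subtype.val hj⟩
    have heq : zpowers xb = zpowers g := by
      refine eq_of_le_of_card_ge (zpowers_le.mpr hgx) ?_
      rw [Nat.card_zpowers, Nat.card_zpowers]
      refine hmax g ⟨fun h => hxb1 (by rw [h, zpowers_one_eq_bot, mem_bot] at hgx; exact hgx), ?_⟩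
      obtain ⟨k, hk⟩ := hAp ⟨g, hgA⟩
      obtain ⟨i, -, hi⟩ := (Nat.dvd_prime_pow hp.out).mp
        (orderOf_dvd_of_pow_eq_one (show g ^ p ^ k = 1 by simpa using congrArg Subtype.val hk))
      exact ⟨i, hi⟩
    rw [heq]
    obtain ⟨j, hj⟩ := hg ⟨t, subset_closure (by simp)⟩
    exact ⟨j, by simpa using congrArg Subtype.val hj⟩
  obtain ⟨g, rfl⟩ := QuotientGroup.mk_surjective xb
  obtain ⟨m, ⟨e, hxo⟩, hz⟩ := exists_pElement (p := p) (g := g) ⟨a, by rw [← hxbo]; exact pow_orderOf_eq_one _⟩
  set x := g ^ m with hx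
  have hxord : orderOf (x : G ⧸ N) = p ^ a := by rw [← hxbo, ← Nat.card_zpowers, hz, Nat.card_zpowers]
  have hxN : x ∉ N := by
    intro h
    apply hxb1
    rw [(QuotientGroup.eq_one_iff _).mpr h, zpowers_one_eq_bot, eq_comm, zpowers_eq_bot] at hz
    exact hz
  have hCeq : centralizer {(x : G ⧸ N)} = centralizer {(g : G ⧸ N)} := by
    rw [← centralizer_closure ({(x : G ⧸ N)} : Set _), ← centralizer_closure ({(g : G ⧸ N)} : Set _),
      ← zpowers_eq_closure, ← zpowers_eq_closure, hz]
  have hC : ∀ T : Subgroup G, T ≤ centralizer {x} → IsPGroup p T → Nat.card T ≤ p ^ a := by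
    intro T hT hTp
    obtain ⟨c, hc⟩ := hTp.exists_card_eq
    have hd : p ^ c ∣ Nat.card (centralizer {(g : G ⧸ N)}) := by
      rw [← hCeq, ← card_centralizer_eq hcam hxN, ← hc]
      exact card_dvd_of_le hT
    obtain ⟨Q, hQ⟩ := Sylow.exists_subgroup_card_pow_prime p hd
    rw [hc, ← hQ, ← card_map_of_injective (f := (centralizer {(g : G ⧸ N)}).subtype) (subtype_injective _)]
    exact hsmall _ (map_subtype_le _) ((IsPGroup.of_card hQ).map _)
  -- a fixed point on the Sylow subgroup of `N`
  let P0 : Subgroup G := (Pn : Subgroup N).map N.subtype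
  haveI : P0.Normal := by
    haveI : (Pn : Subgroup N).Characteristic := Sylow.characteristic_of_normal Pn hPn
    exact ConjAct.normal_of_characteristic_of_normal
  have hP0p : IsPGroup p P0 := Pn.2.map _
  have hP0ne : P0 ≠ ⊥ := fun h =>
    Pn.ne_bot_of_dvd_card hpN ((map_eq_bot_iff_of_injective _ N.subtype_injective).mp h)
  let T0 : Subgroup G := zpowers x ⊔ P0
  have hxp : IsPGroup p (zpowers x) := IsPGroup.of_card (n := e) (by rw [Nat.card_zpowers, hxo])
  have hT0 : IsPGroup p T0 := hxp.to_sup_of_normal_right hP0p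
  letI : MulAction (zpowers x) P0 :=
    MulAction.compHom P0 (((MulAut.conjNormal : G →* MulAut P0)).comp (zpowers x).subtype)
  have hpP0 : p ∣ Nat.card P0 := by
    obtain ⟨c, hc⟩ := hP0p.exists_card_eq
    rw [hc]
    refine dvd_pow_self p ?_
    rintro rfl
    exact hP0ne (card_eq_one.mp (by simpa using hc))
  obtain ⟨n', hfixed, hn1⟩ := hxp.exists_fixed_point_of_prime_dvd_card_of_fixed_point P0 hpP0
    (a := (1 : P0)) (fun t => map_one (MulAut.conjNormal (t : G) : MulAut P0))
  have hcomm : Commute (n' : G) x := by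
    have h := congrArg Subtype.val (hfixed ⟨x, mem_zpowers x⟩)
    change x * (n' : G) * x⁻¹ = n' at h
    exact (mul_inv_eq_iff_eq_mul.mp h).symm
  have hn'N : (n' : G) ∈ N := map_subtype_le _ n'.2
  let T : Subgroup G := zpowers x ⊔ zpowers (n' : G)
  have hTle : T ≤ T0 := sup_le le_sup_left (zpowers_le.mpr (mem_sup_right n'.2))
  have hTc : T ≤ centralizer {x} := sup_le (zpowers_le.mpr (mem_centralizer_singleton_iff.mpr rfl))
    (zpowers_le.mpr (mem_centralizer_singleton_iff.mpr hcomm.eq))
  have hTcard := hC T hTc (hT0.to_le hTle)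
  have hle : p ^ a ≤ orderOf x := by
    rw [← hxord]
    exact Nat.le_of_dvd (orderOf_pos x) (orderOf_map_dvd (QuotientGroup.mk' N) x)
  have hTeq : zpowers x = T := eq_of_le_of_card_ge le_sup_left (by rw [Nat.card_zpowers]; omega)
  obtain ⟨j, hj⟩ := mem_zpowers_iff.mp (hTeq.ge (mem_sup_right (mem_zpowers (n' : G))) : (n' : G) ∈ zpowers x)
  have hxeq : orderOf x = p ^ a := by
    have := card_le_of_le (hTeq.le)
    rw [Nat.card_zpowers] at this
    omega
  apply hn1
  symm
  ext
  have : (x : G ⧸ N) ^ j = 1 := by rw [← QuotientGroup.mk_zpow, hj, QuotientGroup.eq_one_iff]; exact hn'N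
  rw [← orderOf_dvd_iff_zpow_eq_one, hxord, ← hxeq, orderOf_dvd_iff_zpow_eq_one, hj] at this
  exact this

end Cfsg.Agent.Lib.Camina
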